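import Cfsg.Agent.H776.P4.Stmts
import Cfsg.Agent.H767.PU.Card

/-!
# S5210: formulas in `PG K`, orders of the standard subgroups (helper881)

Field facts (`Fx`, `Tz`, `exists_tr`, `card_Fx`, `one_lt_q`, ...) are those of `Cfsg.Agent.H767.PU`.
-/

set_option autoImplicit false

namespace Cfsg.Agent.H881.P4

open Cfsg Cfsg.FusionSystem Cfsg.Agent.H776.P4
open Cfsg.Agent.H756.PU (HypK Ess Inv Com NormAut TIAut AF)
open Cfsg.Agent.H767.PU (Fx Tz mem_Fx card_Fx exists_tr one_lt_q)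

universe u

variable {K : Type u} [Field K] [StarRing K] {p n : ℕ}

/-! ### membership -/

theorem mem_PZ {g : PG K} : g ∈ PZ K ↔ g.r = 0 ∧ g.b = 0 ∧ g.c = 0 := Iff.rfl
theorem mem_PY {g : PG K} : g ∈ PY K ↔ g.r = 0 ∧ g.c = 0 := Iff.rfl
theorem mem_PV {g : PG K} : g ∈ PV K ↔ g.r = 0 := Iff.rfl
theorem mem_PQ {g : PG K} : g ∈ PQ K ↔ g.c = 0 := Iff.rfl

theorem PZ_le_PY : PZ K ≤ PY K := fun _ h => ⟨h.1, h.2.2⟩
theorem PY_le_PV : PY K ≤ PV K := fun _ h => h.1
theorem PY_le_PQ : PY K ≤ PQ K := fun _ h => h.2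
theorem PZ_le_PV : PZ K ≤ PV K := fun _ h => h.1
theorem PZ_le_PQ : PZ K ≤ PQ K := fun _ h => h.2.2
theorem PV_inf_PQ : PV K ⊓ PQ K = PY K := rfl

/-! ### conjugates -/

section conj
variable (x y : PG K)

theorem conj_aux {x y z : PG K} (h : z * x = x * y) : z.r = y.r ∧ z.c = y.c ∧
    z.b = y.b + x.r * y.c - y.r * x.c ∧
    z.a = y.a + x.r * star y.b + star x.r * y.b + x.r * star x.r * y.c
      - y.r * star x.b - star y.r * x.b - y.r * star y.r * x.c := by
  have hr := congrArg PG.r h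
  have hc := congrArg PG.c h
  have hb := congrArg PG.b h
  have ha := congrArg PG.a h
  rw [PG.mul_r, PG.mul_r] at hr
  rw [PG.mul_c, PG.mul_c] at hc
  rw [PG.mul_b, PG.mul_b] at hb
  rw [PG.mul_a, PG.mul_a] at ha
  have h1 : z.r = y.r := by linear_combination hr
  have h2 : z.c = y.c := by linear_combination hc
  rw [h1] at hb ha
  exact ⟨h1, h2, by linear_combination hb, by linear_combination ha⟩

theorem conj_spec : (x * y * x⁻¹).r = y.r ∧ (x * y * x⁻¹).c = y.c ∧
    (x * y * x⁻¹).b = y.b + x.r * y.c - y.r * x.c ∧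
    (x * y * x⁻¹).a = y.a + x.r * star y.b + star x.r * y.b + x.r * star x.r * y.c
      - y.r * star x.b - star y.r * x.b - y.r * star y.r * x.c :=
  conj_aux (by group)

theorem conj_r : (x * y * x⁻¹).r = y.r := (conj_spec x y).1
theorem conj_c : (x * y * x⁻¹).c = y.c := (conj_spec x y).2.1
theorem conj_b : (x * y * x⁻¹).b = y.b + x.r * y.c - y.r * x.c := (conj_spec x y).2.2.1
theorem conj_a : (x * y * x⁻¹).a = y.a + x.r * star y.b + star x.r * y.b + x.r * star x.r * y.c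
      - y.r * star x.b - star y.r * x.b - y.r * star y.r * x.c := (conj_spec x y).2.2.2

theorem comm_spec : (x * y * x⁻¹ * y⁻¹).r = 0 ∧ (x * y * x⁻¹ * y⁻¹).c = 0 ∧
    (x * y * x⁻¹ * y⁻¹).b = x.r * y.c - y.r * x.c ∧
    (x * y * x⁻¹ * y⁻¹).a = x.r * star y.b + star x.r * y.b + x.r * star x.r * y.c
      - y.r * star x.b - star y.r * x.b - y.r * star y.r * x.c := by
  have h : (x * y * x⁻¹ * y⁻¹) * y = x * y * x⁻¹ := by group
  generalize x * y * x⁻¹ * y⁻¹ = w at h
  have hr := congrArg PG.r h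
  have hc := congrArg PG.c h
  have hb := congrArg PG.b h
  have ha := congrArg PG.a h
  rw [PG.mul_r, conj_r] at hr
  rw [PG.mul_c, conj_c] at hc
  rw [PG.mul_b, conj_b] at hb
  rw [PG.mul_a, conj_a] at ha
  have h1 : w.r = 0 := by linear_combination hr
  have h2 : w.c = 0 := by linear_combination hc
  rw [h1] at hb ha
  rw [star_zero] at ha
  exact ⟨h1, h2, by linear_combination hb, by linear_combination ha⟩

theorem comm_r : (x * y * x⁻¹ * y⁻¹).r = 0 := (comm_spec x y).1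
theorem comm_c : (x * y * x⁻¹ * y⁻¹).c = 0 := (comm_spec x y).2.1
theorem comm_b : (x * y * x⁻¹ * y⁻¹).b = x.r * y.c - y.r * x.c := (comm_spec x y).2.2.1
theorem comm_a : (x * y * x⁻¹ * y⁻¹).a = x.r * star y.b + star x.r * y.b + x.r * star x.r * y.c
      - y.r * star x.b - star y.r * x.b - y.r * star y.r * x.c := (comm_spec x y).2.2.2

end conj

theorem commute_iff {x y : PG K} : x * y = y * x ↔ x.r * y.c = y.r * x.c ∧
    x.r * star y.b + star x.r * y.b + x.r * star x.r * y.c =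
      y.r * star x.b + star y.r * x.b + y.r * star y.r * x.c := by
  constructor
  · intro h
    have hb := congrArg PG.b h
    have ha := congrArg PG.a h
    rw [PG.mul_b, PG.mul_b] at hb
    rw [PG.mul_a, PG.mul_a] at ha
    exact ⟨by linear_combination hb, by linear_combination ha⟩
  · rintro ⟨h1, h2⟩
    ext
    · rw [PG.mul_r, PG.mul_r, add_comm]
    · rw [PG.mul_a, PG.mul_a]; linear_combination h2
    · rw [PG.mul_b, PG.mul_b]; linear_combination h1
    · rw [PG.mul_c, PG.mul_c, add_comm]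

/-! ### commutator inclusions -/

theorem com_top_top : Com (⊤ : Subgroup (PG K)) ⊤ (PY K) := fun x _ y _ => ⟨comm_r x y, comm_c x y⟩

theorem com_top_PY : Com (⊤ : Subgroup (PG K)) (PY K) (PZ K) := by
  rintro x - y ⟨h1, h2⟩
  exact ⟨comm_r x y, by rw [comm_b, h1, h2]; ring, comm_c x y⟩

theorem com_top_PZ : Com (⊤ : Subgroup (PG K)) (PZ K) ⊥ := by
  rintro x - y ⟨h1, h2, h3⟩
  rw [Subgroup.mem_bot]
  ext
  · exact comm_r x y
  · rw [comm_a, h1, h2, h3]; simp
  · rw [comm_b, h1, h3]; simp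
  · exact comm_c x y

theorem com_top_PV : Com (⊤ : Subgroup (PG K)) (PV K) (PY K) := fun x _ y _ => ⟨comm_r x y, comm_c x y⟩
theorem com_top_PQ : Com (⊤ : Subgroup (PG K)) (PQ K) (PY K) := fun x _ y _ => ⟨comm_r x y, comm_c x y⟩

theorem com_PQ_PQ : Com (PQ K) (PQ K) (PZ K) := by
  intro x hx y hy
  rw [mem_PQ] at hx hy
  exact ⟨comm_r x y, by rw [comm_b, hx, hy]; ring, comm_c x y⟩

theorem comm_PV_PV {x y : PG K} (hx : x ∈ PV K) (hy : y ∈ PV K) : x * y = y * x := by
  rw [mem_PV] at hx hy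
  rw [commute_iff, hx, hy]
  simp

theorem comm_PZ {x z : PG K} (hz : z ∈ PZ K) : x * z = z * x := by
  obtain ⟨h1, h2, h3⟩ := hz
  rw [commute_iff, h1, h2, h3]
  simp

instance normal_PZ : (PZ K).Normal := ⟨fun y hy x => by
  obtain ⟨h1, h2, h3⟩ := mem_PZ.1 hy
  exact ⟨by rw [conj_r, h1], by rw [conj_b, h1, h2, h3]; ring, by rw [conj_c, h3]⟩⟩
instance normal_PY : (PY K).Normal := ⟨fun y hy x => by
  obtain ⟨h1, h2⟩ := mem_PY.1 hy
  exact ⟨by rw [conj_r, h1], by rw [conj_c, h2]⟩⟩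
instance normal_PV : (PV K).Normal := ⟨fun y hy x => mem_PV.2 (by rw [conj_r, mem_PV.1 hy])⟩
instance normal_PQ : (PQ K).Normal := ⟨fun y hy x => mem_PQ.2 (by rw [conj_c, mem_PQ.1 hy])⟩

/-! ### standard elements -/

/-- `u_r` -/
def eu (r : K) : PG K := { r := r, a := 0, b := 0, c := 0, ha := by simp, hc := by simp }
/-- `(0; a, 0, 0)` -/
def ea (a : K) (ha : star a = a) : PG K := { r := 0, a := a, b := 0, c := 0, ha := ha, hc := by simp }
/-- `(0; 0, b, 0)` -/
def eb (b : K) : PG K := { r := 0, a := 0, b := b, c := 0, ha := by simp, hc := by simp }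
/-- `(0; 0, 0, c)` -/
def ec (c : K) (hc : star c = c) : PG K := { r := 0, a := 0, b := 0, c := c, ha := by simp, hc := hc }

@[simp] theorem eu_r (r : K) : (eu r).r = r := rfl
@[simp] theorem eu_a (r : K) : (eu r).a = 0 := rfl
@[simp] theorem eu_b (r : K) : (eu r).b = 0 := rfl
@[simp] theorem eu_c (r : K) : (eu r).c = 0 := rfl
@[simp] theorem ea_r (a : K) (ha : star a = a) : (ea a ha).r = 0 := rfl
@[simp] theorem ea_a (a : K) (ha : star a = a) : (ea a ha).a = a := rfl
@[simp] theorem ea_b (a : K) (ha : star a = a) : (ea a ha).b = 0 := rfl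
@[simp] theorem ea_c (a : K) (ha : star a = a) : (ea a ha).c = 0 := rfl
@[simp] theorem eb_r (b : K) : (eb b).r = 0 := rfl
@[simp] theorem eb_a (b : K) : (eb b).a = 0 := rfl
@[simp] theorem eb_b (b : K) : (eb b).b = b := rfl
@[simp] theorem eb_c (b : K) : (eb b).c = 0 := rfl
@[simp] theorem ec_r (c : K) (hc : star c = c) : (ec c hc).r = 0 := rfl
@[simp] theorem ec_a (c : K) (hc : star c = c) : (ec c hc).a = 0 := rfl
@[simp] theorem ec_b (c : K) (hc : star c = c) : (ec c hc).b = 0 := rfl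
@[simp] theorem ec_c (c : K) (hc : star c = c) : (ec c hc).c = c := rfl

theorem eu_mem (r : K) : eu r ∈ PQ K := rfl
theorem ea_mem (a : K) (ha : star a = a) : ea a ha ∈ PZ K := ⟨rfl, rfl, rfl⟩
theorem eb_mem (b : K) : eb b ∈ PY K := ⟨rfl, rfl⟩
theorem ec_mem (c : K) (hc : star c = c) : ec c hc ∈ PV K := rfl

theorem eu_mul (r s : K) : eu r * eu s = eu (r + s) := by
  ext <;> simp [PG.mul_a, PG.mul_b]

theorem eu_inv (r : K) : (eu r)⁻¹ = eu (-r) := by
  ext <;> simp [PG.inv_a, PG.inv_b]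

theorem eu_zero : (eu 0 : PG K) = 1 := rfl

/-- every element is `v * u_r` -/
theorem eq_mul_eu (g : PG K) : ∃ v ∈ PV K, g = v * eu g.r :=
  ⟨g * (eu g.r)⁻¹, by rw [mem_PV, PG.mul_r, PG.inv_r]; simp, by group⟩

/-- conjugation of `v ∈ V` by `g` -/
theorem conj_V_a {g v : PG K} (hv : v ∈ PV K) : (g * v * g⁻¹).a =
    v.a + g.r * star v.b + star g.r * v.b + g.r * star g.r * v.c := by
  rw [conj_a, mem_PV.1 hv]; simp
theorem conj_V_b {g v : PG K} (hv : v ∈ PV K) : (g * v * g⁻¹).b = v.b + g.r * v.c := by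
  rw [conj_b, mem_PV.1 hv]; simp

/-- multiplication in `V` -/
theorem mul_V_a {g v : PG K} (hg : g ∈ PV K) : (g * v).a = g.a + v.a := by
  rw [PG.mul_a, mem_PV.1 hg]; simp
theorem mul_V_b {g v : PG K} (hg : g ∈ PV K) : (g * v).b = g.b + v.b := by
  rw [PG.mul_b, mem_PV.1 hg]; simp

/-! ### orders -/

theorem fin_PG (h : HypK K p n) : Finite (PG K) := by
  have := h.fin
  refine Finite.of_injective (fun g : PG K => (g.r, g.a, g.b, g.c)) ?_
  intro x y hxy
  simp only [Prod.mk.injEq] at hxy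
  obtain ⟨h1, h2, h3, h4⟩ := hxy
  exact PG.ext h1 h2 h3 h4

variable (K) in
/-- coordinates `(r, b, a, c)` -/
def coord : (K × K × Fx K × Fx K) ≃ PG K where
  toFun t := { r := t.1, b := t.2.1, a := t.2.2.1, c := t.2.2.2, ha := t.2.2.1.2, hc := t.2.2.2.2 }
  invFun g := (g.r, g.b, ⟨g.a, g.ha⟩, ⟨g.c, g.hc⟩)
  left_inv _ := rfl
  right_inv _ := rfl

@[simp] theorem coord_r (t) : (coord K t).r = t.1 := rfl
@[simp] theorem coord_b (t) : (coord K t).b = t.2.1 := rfl
@[simp] theorem coord_a (t) : (coord K t).a = t.2.2.1 := rfl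
@[simp] theorem coord_c (t) : (coord K t).c = t.2.2.2 := rfl

theorem card_PG (h : HypK K p n) : Nat.card (PG K) = (p ^ n) ^ 6 := by
  rw [← Nat.card_congr (coord K)]
  simp only [Nat.card_prod, h.card, card_Fx h]
  ring

/-- the order of a subgroup given by independent conditions on the coordinates `r, b, a, c` -/
theorem card_sub (H : Subgroup (PG K)) (R B : Set K) (A C : Set (Fx K))
    (hH : ∀ t, coord K t ∈ H ↔ t.1 ∈ R ∧ t.2.1 ∈ B ∧ t.2.2.1 ∈ A ∧ t.2.2.2 ∈ C) :
    Nat.card H = R.ncard * (B.ncard * (A.ncard * C.ncard)) := by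
  have h1 : (H : Set (PG K)) = coord K '' (R ×ˢ B ×ˢ A ×ˢ C) := by
    ext g
    constructor
    · intro hg
      refine ⟨(coord K).symm g, ?_, (coord K).apply_symm_apply g⟩
      have h2 := (hH ((coord K).symm g)).mp (by rw [(coord K).apply_symm_apply]; exact hg)
      simpa only [Set.mem_prod] using h2
    · rintro ⟨t, ht, rfl⟩
      exact (hH t).mpr (by simpa only [Set.mem_prod] using ht)
  have h2 : Nat.card H = (H : Set (PG K)).ncard := Nat.card_coe_set_eq _
  rw [h2, h1, Set.ncard_image_of_injective _ (coord K).injective]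
  simp only [Set.ncard_prod]

theorem ncard_univ_K (h : HypK K p n) : (Set.univ : Set K).ncard = (p ^ n) ^ 2 := by
  rw [Set.ncard_univ, h.card]
theorem ncard_univ_F (h : HypK K p n) : (Set.univ : Set (Fx K)).ncard = p ^ n := by
  rw [Set.ncard_univ, card_Fx h]

theorem card_PZ (h : HypK K p n) : Nat.card (PZ K) = p ^ n := by
  rw [card_sub (PZ K) {0} {0} Set.univ {0}]
  · simp [ncard_univ_F h]
  · intro t
    rw [mem_PZ, coord_r, coord_b, coord_c]
    simp only [Set.mem_singleton_iff, Set.mem_univ, true_and, ZeroMemClass.coe_eq_zero]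

theorem card_PY (h : HypK K p n) : Nat.card (PY K) = (p ^ n) ^ 3 := by
  rw [card_sub (PY K) {0} Set.univ Set.univ {0}]
  · simp only [Set.ncard_singleton, ncard_univ_F h, ncard_univ_K h]; ring
  · intro t
    rw [mem_PY, coord_r, coord_c]
    simp only [Set.mem_singleton_iff, Set.mem_univ, true_and, ZeroMemClass.coe_eq_zero]

theorem card_PV (h : HypK K p n) : Nat.card (PV K) = (p ^ n) ^ 4 := by
  rw [card_sub (PV K) {0} Set.univ Set.univ Set.univ]
  · simp only [Set.ncard_singleton, ncard_univ_F h, ncard_univ_K h]; ring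
  · intro t
    simp [mem_PV]

theorem card_PQ (h : HypK K p n) : Nat.card (PQ K) = (p ^ n) ^ 5 := by
  rw [card_sub (PQ K) Set.univ Set.univ Set.univ {0}]
  · simp only [Set.ncard_singleton, ncard_univ_F h, ncard_univ_K h]; ring
  · intro t
    rw [mem_PQ, coord_c]
    simp only [Set.mem_singleton_iff, Set.mem_univ, true_and, ZeroMemClass.coe_eq_zero]

theorem isPGroup_PG (h : HypK K p n) : IsPGroup p (PG K) := by
  have : Fact p.Prime := ⟨h.pp⟩
  refine IsPGroup.of_card (n := n * 6) ?_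
  rw [card_PG h, pow_mul]

theorem isPGroup_top (h : HypK K p n) : IsPGroup p (⊤ : Subgroup (PG K)) := by
  have : Fact p.Prime := ⟨h.pp⟩
  refine IsPGroup.of_card (n := n * 6) ?_
  rw [Subgroup.card_top, card_PG h, pow_mul]

/-! ### elementary abelian groups -/

theorem PV_pow (h : HypK K p n) {x : PG K} (hx : x ∈ PV K) : x ^ p = 1 := by
  have hch := h.char
  have key : ∀ k : ℕ, (x ^ k).r = 0 ∧ (x ^ k).a = k * x.a ∧ (x ^ k).b = k * x.b ∧ (x ^ k).c = k * x.c := by
    have h1 := mem_PV.1 hx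
    intro k
    induction k with
    | zero => simp
    | succ k ih =>
      obtain ⟨i1, i2, i3, i4⟩ := ih
      rw [pow_succ]
      refine ⟨?_, ?_, ?_, ?_⟩
      · rw [PG.mul_r, i1, h1, add_zero]
      · rw [PG.mul_a, i1, i2]; push_cast; simp only [zero_mul, star_zero, add_zero]; ring
      · rw [PG.mul_b, i1, i3]; push_cast; ring
      · rw [PG.mul_c, i4]; push_cast; ring
  obtain ⟨i1, i2, i3, i4⟩ := key p
  rw [CharP.cast_eq_zero, zero_mul] at i2 i3 i4
  exact PG.ext i1 i2 i3 i4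

end Cfsg.Agent.H881.P4
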